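import Cfsg.Agent.H64.Chev.Isogeny
import Cfsg.Agent.H64.Chev.AutClassify
import Cfsg.Prelude.Def_LieTwisted

/-!
# The exceptional graph automorphisms exist over perfect fields
-/

set_option autoImplicit false
set_option maxRecDepth 100000

namespace Cfsg.Agent.H64.Isogeny

open Cfsg.Lie Cfsg.Agent.H46 Cfsg.Agent.H47 Cfsg.Agent.H64.AutChev
open scoped Matrix MatrixGroups

/-- The table `I` moves the fundamental roots by `L` with exponents `e`, and their negatives likewise. -/
def chkSwap (D : ChevalleyDatum) (I : IsogenyTable) (L e : List ℕ) : Bool :=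
  (List.range D.rank).all fun i =>
    decide (L.getD i 0 < D.rank) && decide (I.β (D.simple i) = D.simple (L.getD i 0)) &&
    decide (I.e (D.simple i) = e.getD i 0) && decide (I.β (D.neg (D.simple i)) = D.neg (D.simple (L.getD i 0))) &&
    decide (I.e (D.neg (D.simple i)) = e.getD i 0) && decide (L.getD (L.getD i 0) 0 = i)

theorem chkSwap_all : chkSwap chevB2 tB2 [1, 0] [2, 1] = true ∧ chkSwap chevF4 tF4 [3, 2, 1, 0] [2, 2, 1, 1] = true ∧
    chkSwap chevG2 tG2 [1, 0] [3, 1] = true := by decide +kernel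

section

variable {D : ChevalleyDatum} (G : Good D) {p : ℕ} {S : List ℕ} {I : IsogenyTable} {F : Type*} [Field F] [CharP F p]
  [Fact p.Prime] (hperf : ∀ x : F, ∃ y : F, y ^ p = x) (h : blockCheck D p S = true) (hI : I.check D p S = true)
  (hinj : Function.Injective (Isogeny.idealRep (F := F) G h))

/-- The isogeny as an automorphism over a perfect field. -/
noncomputable def isoEquiv : ↥(D.group F) ≃* ↥(D.group F) :=
  MulEquiv.ofBijective (Isogeny.isogeny G h hI hinj) (Isogeny.isogeny_bijective hperf G h hI hinj)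

theorem isoEquiv_x (r : ℕ) (hr : r < D.nroots) (t : F) (g : ↥(D.group F))
    (hg : ((g : GL D.Idx F) : Matrix D.Idx D.Idx F) = D.x F r t) :
    ((isoEquiv G hperf h hI hinj g : GL D.Idx F) : Matrix D.Idx D.Idx F) = D.x F (I.β r) (t ^ I.e r) :=
  Isogeny.isogeny_x G h hI hinj r hr t g hg

include hperf h hI hinj in
/-- A graph-type automorphism from the tables. -/
theorem exists_swap {L e : List ℕ} (hc : chkSwap D I L e = true) :
    ∃ (g : ↥(D.group F) ≃* ↥(D.group F)) (π : Equiv.Perm (Fin D.rank)),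
      (∀ i, (π i : ℕ) = L.getD i 0) ∧ Sends G g π (fun i => e.getD i 0) := by
  simp only [chkSwap, List.all_eq_true, List.mem_range, Bool.and_eq_true, decide_eq_true_eq] at hc
  let ρ : Fin D.rank → Fin D.rank := fun i => ⟨L.getD i 0, (hc i i.2).1.1.1.1.1⟩
  have hρ : ∀ i, ρ (ρ i) = i := fun i => Fin.ext (hc i i.2).2
  refine ⟨isoEquiv G hperf h hI hinj, ⟨ρ, ρ, hρ, hρ⟩, fun i => rfl, fun i t => ?_⟩
  obtain ⟨⟨⟨⟨⟨-, a⟩, b⟩, c⟩, d⟩, -⟩ := hc i i.2
  have key : ∀ (r : ℕ) (hr : r < D.nroots),
      isoEquiv G hperf h hI hinj (G.xG r t) = G.xG (I.β r) (t ^ I.e r) := fun r hr =>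
    Subtype.ext (Units.ext ((isoEquiv_x G hperf h hI hinj r hr t (G.xG r t) (G.coe_xg r t)).trans
      (G.coe_xg _ _).symm))
  exact ⟨by rw [key _ (G.simple_lt i.2), a, b]; rfl, by rw [key _ (G.neg_lt (G.simple_lt i.2)), c, d]; rfl⟩

end

theorem injective_B2 {F : Type*} [Field F] [CharP F 2] :
    Function.Injective (Isogeny.idealRep (F := F) goodB2 blockCheck_B2) :=
  idealRep_injective' goodB2 chkConn_all.2.1 blockCheck_B2 (i := 0) (by decide +kernel) (by decide +kernel)
    (by decide +kernel) (by decide +kernel)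

theorem injective_G2 {F : Type*} [Field F] [CharP F 3] :
    Function.Injective (Isogeny.idealRep (F := F) goodG2 blockCheck_G2) :=
  idealRep_injective' goodG2 chkConn_all.1 blockCheck_G2 (i := 0) (by decide +kernel) (by decide +kernel)
    (by decide +kernel) (by decide +kernel)

theorem injective_F4 {F : Type*} [Field F] [CharP F 2] :
    Function.Injective (Isogeny.idealRep (F := F) goodF4 blockCheck_F4) :=
  idealRep_injective' goodF4 chkConn_all.2.2.2.1 blockCheck_F4 (i := 0) (by decide +kernel) (by decide +kernel)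
    (by decide +kernel) (by decide +kernel)

variable {F : Type*} [Field F]

theorem swap_B2 [CharP F 2] (hperf : ∀ x : F, ∃ y : F, y ^ 2 = x) :
    ∃ (g : ↥(chevB2.group F) ≃* ↥(chevB2.group F)) (π : Equiv.Perm (Fin chevB2.rank)),
      (∀ i, (π i : ℕ) = [1, 0].getD i 0) ∧ Sends goodB2 g π (fun i => [2, 1].getD i 0) :=
  haveI := Fact.mk Nat.prime_two
  exists_swap goodB2 hperf blockCheck_B2 check_B2 injective_B2 chkSwap_all.1

theorem swap_F4 [CharP F 2] (hperf : ∀ x : F, ∃ y : F, y ^ 2 = x) :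
    ∃ (g : ↥(chevF4.group F) ≃* ↥(chevF4.group F)) (π : Equiv.Perm (Fin chevF4.rank)),
      (∀ i, (π i : ℕ) = [3, 2, 1, 0].getD i 0) ∧ Sends goodF4 g π (fun i => [2, 2, 1, 1].getD i 0) :=
  haveI := Fact.mk Nat.prime_two
  exists_swap goodF4 hperf blockCheck_F4 check_F4 injective_F4 chkSwap_all.2.1

theorem swap_G2 [CharP F 3] (hperf : ∀ x : F, ∃ y : F, y ^ 3 = x) :
    ∃ (g : ↥(chevG2.group F) ≃* ↥(chevG2.group F)) (π : Equiv.Perm (Fin chevG2.rank)),
      (∀ i, (π i : ℕ) = [1, 0].getD i 0) ∧ Sends goodG2 g π (fun i => [3, 1].getD i 0) :=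
  haveI := Fact.mk Nat.prime_three
  exists_swap goodG2 hperf blockCheck_G2 check_G2 injective_G2 chkSwap_all.2.2

/-- Over a finite field all exceptional graph automorphisms of the right characteristic exist. -/
theorem hasExceptional (D : ChevalleyDatum) (F : Type*) [Field F] [Finite F] : HasExceptional D F := by
  refine ⟨fun _ h0 => ?_, fun _ h0 => ?_, fun _ h0 => ?_⟩
  · haveI := Fact.mk Nat.prime_two
    haveI : CharP F 2 := (CharP.charP_iff_prime_eq_zero Nat.prime_two).2 h0
    exact swap_B2 fun x => (PerfectRing.bijective_frobenius (R := F) (p := 2)).2 x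
  · haveI := Fact.mk Nat.prime_two
    haveI : CharP F 2 := (CharP.charP_iff_prime_eq_zero Nat.prime_two).2 h0
    exact swap_F4 fun x => (PerfectRing.bijective_frobenius (R := F) (p := 2)).2 x
  · haveI := Fact.mk Nat.prime_three
    haveI : CharP F 3 := (CharP.charP_iff_prime_eq_zero Nat.prime_three).2 h0
    exact swap_G2 fun x => (PerfectRing.bijective_frobenius (R := F) (p := 3)).2 x

end Cfsg.Agent.H64.Isogeny
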