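import Cfsg.Agent.H47.SpecialIsogeny
import Cfsg.Agent.H46.Simple
import Cfsg.Agent.H8.BNSimple
import Cfsg.Prelude.Def_ChevAutomorphisms

/-!
# The exceptional isogenies of `B₂`, `F₄` (characteristic 2) and `G₂` (characteristic 3)
-/

set_option autoImplicit false
set_option maxRecDepth 100000

namespace Cfsg.Agent.H64.Isogeny

open Cfsg.Lie Cfsg.Agent.H46
open Cfsg.Agent.H47 hiding idealRep quotRep quotRep' isogeny isogeny_x isogeny_sq isogeny_bijective idealRep_isogeny
open scoped Matrix MatrixGroups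

/-- Invariant coordinates of type `B₂`. -/
def sB2 : List ℕ := [0, 3, 4, 7, 8]

/-- The isogeny table of type `B₂`. -/
def tB2 : IsogenyTable where
  quot := [1, 2, 5, 6, 9]
  bar := [1, 0, 3, 2, 5, 4, 7, 6]
  lam := [1, 2, 2, 1, 1, 2, 2, 1]

/-- Invariant coordinates of type `G₂`. -/
def sG2 : List ℕ := [0, 4, 5, 6, 9, 10, 11]

/-- The isogeny table of type `G₂`. -/
def tG2 : IsogenyTable where
  quot := [1, 2, 3, 7, 8, 12, 13]
  bar := [2, 3, 0, 1, 5, 4, 7, 6, 10, 11, 8, 9]
  lam := [1, 1, 3, 3, 3, 1, 1, 3, 3, 3, 1, 1]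

/-- Invariant coordinates of type `F₄`. -/
def sF4 : List ℕ :=
  [0, 1, 7, 11, 12, 13, 14, 15, 16, 17, 18, 22, 23, 24, 31, 32, 33, 37, 38, 39, 40, 41, 42, 43, 44, 48]

/-- The isogeny table of type `F₄`. -/
def tF4 : IsogenyTable where
  quot := [3, 2, 4, 5, 6, 8, 19, 9, 20, 25, 27, 10, 21, 26, 29, 34, 45, 28, 30, 35, 46, 36, 47, 49, 50, 51]
  bar := [3, 7, 8, 0, 9, 11, 18, 1, 2, 4, 15, 5, 16, 21, 23, 10, 12, 19, 6, 17, 22, 13, 20, 14, 33, 27, 34, 25, 30,
    41, 28, 35, 37, 24, 26, 31, 42, 32, 43, 45, 46, 29, 36, 38, 47, 39, 40, 44]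
  lam := [1, 1, 1, 2, 1, 1, 1, 2, 2, 2, 2, 2, 2, 2, 2, 1, 1, 1, 2, 2, 2, 1, 1, 1, 1, 1, 1, 2, 2, 2, 1, 1, 1, 2, 2, 2,
    2, 2, 2, 2, 2, 1, 1, 1, 2, 1, 1, 1]

theorem check_B2 : tB2.check chevB2 2 sB2 = true := by decide +kernel
theorem check_G2 : tG2.check chevG2 3 sG2 = true := by decide +kernel
theorem check_F4 : tF4.check chevF4 2 sF4 = true := by decide +kernel

/-- The check that the coordinates `S` span an invariant subspace modulo `p`. -/
noncomputable def blockCheck (D : ChevalleyDatum) (p : ℕ) (S : List ℕ) : Bool :=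
  decide S.Nodup && (S.all fun a => decide (a < adDim D)) &&
  (List.range D.nroots).all fun r =>
    decide (D.negIdx.getD r 0 ≠ r) &&
    SPoly.eqMod p ((xSP D r).filter fun e => decide (e.1.1 ∉ S) && decide (e.1.2.1 ∈ S)) []

theorem blockCheck_B2 : blockCheck chevB2 2 sB2 = true := by decide +kernel
theorem blockCheck_G2 : blockCheck chevG2 3 sG2 = true := by decide +kernel
theorem blockCheck_F4 : blockCheck chevF4 2 sF4 = true := by decide +kernel

section

variable {D : ChevalleyDatum} {p : ℕ} {S : List ℕ} {I : IsogenyTable} {F : Type*} [Field F]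

theorem blockCheck_spec (h : blockCheck D p S = true) :
    S.Nodup ∧ (∀ a ∈ S, a < adDim D) ∧ ∀ r < D.nroots, D.negIdx.getD r 0 ≠ r ∧
      SPoly.eqMod p ((xSP D r).filter fun e => decide (e.1.1 ∉ S) && decide (e.1.2.1 ∈ S)) [] = true := by
  simp only [blockCheck, Bool.and_eq_true, decide_eq_true_eq, List.all_eq_true, List.mem_range] at h
  exact ⟨h.1.1, h.1.2, h.2⟩

theorem xMat_mem (G : Good D) (r : Fin D.nroots) (t : F) :
    ∃ g : ↥(D.group F), ((g : GL D.Idx F) : Matrix D.Idx D.Idx F) = D.xMat F r t :=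
  ⟨G.xG r t, by show ((G.xg r t : GL D.Idx F) : Matrix D.Idx D.Idx F) = _; rw [G.coe_xg, ChevalleyDatum.x, dif_pos r.isLt]⟩

theorem isBlock_x [CharP F p] (h : blockCheck D p S = true) (r : Fin D.nroots) (t : F) :
    IsBlock S (toFinMat D F (D.xMat F r t)) := by
  obtain ⟨hne, hblk⟩ := (blockCheck_spec h).2.2 r r.isLt
  intro a b hb ha
  have h0 : SPoly.eval (adDim D)
      ((xSP D r.val).filter fun e => decide (e.1.1 ∉ S) && decide (e.1.2.1 ∈ S)) t = (0 : Matrix _ _ F) :=
    SPoly.eval_eq_of_eqMod (N := adDim D) p hblk t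
  rw [← eval_xSP D r hne, ← show ((0 : Matrix (Fin (adDim D)) (Fin (adDim D)) F)) a b = 0 from rfl, ← h0,
    SPoly.eval_apply, SPoly.eval_apply]
  induction xSP D r.val with
  | nil => simp
  | cons e L ih =>
    rw [List.map_cons, List.sum_cons, ih, List.filter_cons]
    by_cases he : e.1.1 ∉ S ∧ e.1.2.1 ∈ S
    · rw [if_pos (by simp [he.1, he.2] : (decide (e.1.1 ∉ S) && decide (e.1.2.1 ∈ S)) = true),
        List.map_cons, List.sum_cons]
    · have hif : ¬((decide (e.1.1 ∉ S) && decide (e.1.2.1 ∈ S)) = true) := by simpa using he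
      rw [if_neg hif, if_neg (fun hh : (a : ℕ) = e.1.1 ∧ (b : ℕ) = e.1.2.1 =>
        he ⟨hh.1 ▸ ha, hh.2 ▸ hb⟩), zero_add]

theorem isBlock_group [CharP F p] (G : Good D) (h : blockCheck D p S = true) (g : ↥(D.group F)) :
    IsBlock S (finHom D F g : Matrix (Fin (adDim D)) (Fin (adDim D)) F) ∧
      IsBlock S ((finHom D F g)⁻¹ : GL (Fin (adDim D)) F).val := by
  obtain ⟨g, hg⟩ := g
  induction hg using Subgroup.closure_induction with
  | mem x hx =>
    obtain ⟨r, t, hx⟩ := hx
    have e : x = G.xg r t := G.eq_xg (by rw [hx]; simp [ChevalleyDatum.x])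
    subst e
    refine ⟨?_, ?_⟩
    · show IsBlock S (toFinMat D F (G.xg r t : GL D.Idx F).val)
      rw [hx]; exact isBlock_x h r t
    · show IsBlock S (toFinMat D F ((G.xg r t)⁻¹ : GL D.Idx F).val)
      rw [G.xg_inv, G.coe_xg, ChevalleyDatum.x, dif_pos r.isLt]
      exact isBlock_x h r (-t)
  | one =>
    have : finHom D F ⟨1, one_mem _⟩ = 1 := map_one _
    rw [this]
    exact ⟨isBlock_one, by rw [inv_one]; exact isBlock_one⟩
  | mul a b ha hb iha ihb =>
    have : finHom D F ⟨a * b, mul_mem ha hb⟩ = finHom D F ⟨a, ha⟩ * finHom D F ⟨b, hb⟩ :=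
      map_mul (finHom D F) ⟨a, ha⟩ ⟨b, hb⟩
    rw [this, Units.val_mul, mul_inv_rev, Units.val_mul]
    exact ⟨iha.1.mul ihb.1, ihb.2.mul iha.2⟩
  | inv a ha iha =>
    have : finHom D F ⟨a⁻¹, inv_mem ha⟩ = (finHom D F ⟨a, ha⟩)⁻¹ := map_inv (finHom D F) ⟨a, ha⟩
    rw [this, inv_inv]
    exact ⟨iha.2, iha.1⟩

/-- The representation on the invariant coordinates. -/
noncomputable def idealRep [CharP F p] (G : Good D) (h : blockCheck D p S = true) : ↥(D.group F) →* GL (Fin S.length) F :=
  subRep S (blockCheck_spec h).1 (blockCheck_spec h).2.1 fun g g' =>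
    subMat_mul_block (blockCheck_spec h).1 _ (isBlock_group G h g').1

/-- The representation on complementary coordinates. -/
noncomputable def quotRep [CharP F p] (G : Good D) (h : blockCheck D p S = true) (T : List ℕ) (hnd : T.Nodup)
    (hT : ∀ a ∈ T, a < adDim D) (hcompl : ∀ a < adDim D, (a ∈ T ↔ a ∉ S)) :
    ↥(D.group F) →* GL (Fin T.length) F :=
  subRep T hnd hT fun g g' =>
    subMat_mul hnd hT fun a c b ha _ hc => by
      rw [(isBlock_group G h g).1 a c (by simpa [hcompl c c.isLt] using hc)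
        ((hcompl a a.isLt).mp ha), zero_mul]

/-- The quotient representation, indexed like the ideal representation. -/
noncomputable def quotRep' [CharP F p] (G : Good D) (h : blockCheck D p S = true) (hI : I.check D p S = true) :
    ↥(D.group F) →* GL (Fin S.length) F :=
  (Units.map (Matrix.reindexAlgEquiv F F (finCongr (IsogenyTable.check_spec hI).2.2.1)).toRingEquiv.toRingHom.toMonoidHom).comp
    (quotRep G h I.quot (IsogenyTable.check_spec hI).1 (IsogenyTable.check_spec hI).2.1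
      (IsogenyTable.check_spec hI).2.2.2.1)

theorem quotRep'_gen [CharP F p] (G : Good D) (h : blockCheck D p S = true) (hI : I.check D p S = true)
    (r : Fin D.nroots) (t : F) (g g' : ↥(D.group F))
    (hg : ((g : GL D.Idx F) : Matrix D.Idx D.Idx F) = D.xMat F r t)
    (hg' : ((g' : GL D.Idx F) : Matrix D.Idx D.Idx F) =
      D.xMat F ⟨I.β r, ((IsogenyTable.check_spec hI).2.2.2.2 r r.isLt).1⟩ (t ^ I.e r)) :
    quotRep' G h hI g = idealRep G h g' := by
  obtain ⟨hnd, hT, hlen, hcompl, hall⟩ := IsogenyTable.check_spec hI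
  obtain ⟨hb, -, -, he⟩ := hall r r.isLt
  obtain ⟨hSnd, hS, hall'⟩ := blockCheck_spec h
  apply Units.ext
  show (subMat I.quot hT (toFinMat D F ((g : GL D.Idx F) : Matrix D.Idx D.Idx F))).submatrix
      (finCongr hlen).symm (finCongr hlen).symm
    = subMat S hS (toFinMat D F ((g' : GL D.Idx F) : Matrix D.Idx D.Idx F))
  rw [hg, hg', ← eval_xSP D r (hall' r r.isLt).1, ← eval_xSP D _ (hall' _ hb).1]
  simp only [subMat]
  rw [← SPoly.eval_restrict I.quot hnd hT, ← SPoly.eval_restrict S hSnd hS, ← SPoly.eval_substPow,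
    SPoly.eval_eq_of_eqMod p he t, SPoly.eval_cast hlen, Matrix.submatrix_submatrix]
  rfl

theorem quotRep'_mem_range [CharP F p] (G : Good D) (h : blockCheck D p S = true) (hI : I.check D p S = true)
    (g : ↥(D.group F)) : quotRep' G h hI g ∈ (idealRep (F := F) G h).range := by
  refine hom_mem_of_gen (quotRep' G h hI) _ ?_ g
  rintro x hx
  obtain ⟨r, t, hxr⟩ := hx
  obtain ⟨g', hg'⟩ := xMat_mem G
    ⟨I.β r, ((IsogenyTable.check_spec hI).2.2.2.2 r r.isLt).1⟩ (t ^ I.e r)
  exact MonoidHom.mem_range.mpr ⟨g', (quotRep'_gen G h hI r t _ g' hxr hg').symm⟩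

/-- The exceptional endomorphism of the Chevalley group. -/
noncomputable def isogeny [CharP F p] (G : Good D) (h : blockCheck D p S = true) (hI : I.check D p S = true)
    (hinj : Function.Injective (idealRep (F := F) G h)) : ↥(D.group F) →* ↥(D.group F) :=
  ((MonoidHom.ofInjective hinj).symm : (idealRep (F := F) G h).range →* ↥(D.group F)).comp
    ((quotRep' G h hI).codRestrict (idealRep (F := F) G h).range (quotRep'_mem_range G h hI))

theorem idealRep_isogeny [CharP F p] (G : Good D) (h : blockCheck D p S = true) (hI : I.check D p S = true)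
    (hinj : Function.Injective (idealRep (F := F) G h)) (g : ↥(D.group F)) :
    idealRep G h (isogeny G h hI hinj g) = quotRep' G h hI g := by
  have := (MonoidHom.ofInjective hinj).apply_symm_apply ⟨quotRep' G h hI g, quotRep'_mem_range G h hI g⟩
  exact congrArg Subtype.val this

/-- The isogeny on root elements. -/
theorem isogeny_x [CharP F p] (G : Good D) (h : blockCheck D p S = true) (hI : I.check D p S = true)
    (hinj : Function.Injective (idealRep (F := F) G h)) (r : ℕ) (hr : r < D.nroots) (t : F)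
    (g : ↥(D.group F)) (hg : ((g : GL D.Idx F) : Matrix D.Idx D.Idx F) = D.x F r t) :
    ((isogeny G h hI hinj g : GL D.Idx F) : Matrix D.Idx D.Idx F) = D.x F (I.β r) (t ^ I.e r) := by
  have hb := ((IsogenyTable.check_spec hI).2.2.2.2 r hr).1
  obtain ⟨g', hg'⟩ := xMat_mem G ⟨I.β r, hb⟩ (t ^ I.e r)
  simp only [ChevalleyDatum.x, dif_pos hr] at hg
  have : isogeny G h hI hinj g = g' :=
    hinj ((idealRep_isogeny G h hI hinj g).trans (quotRep'_gen G h hI ⟨r, hr⟩ t g g' hg hg'))
  rw [this, hg']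
  simp only [ChevalleyDatum.x, dif_pos hb]

/-- The square of the isogeny is the Frobenius map. -/
theorem isogeny_sq [CharP F p] [Fact p.Prime] (G : Good D) (h : blockCheck D p S = true) (hI : I.check D p S = true)
    (hinj : Function.Injective (idealRep (F := F) G h)) (g : ↥(D.group F)) :
    isogeny G h hI hinj (isogeny G h hI hinj g) =
      ⟨Units.map (((frobenius F p)).mapMatrix (m := D.Idx)).toMonoidHom (g : GL D.Idx F),
        map_group_le D (frobenius F p) ⟨g.1, g.2, rfl⟩⟩ := by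
  obtain ⟨g, hg⟩ := g
  induction hg using Subgroup.closure_induction with
  | mem x hx =>
    obtain ⟨r, t, hx⟩ := hx
    obtain ⟨hb, hbb, he, -⟩ := (IsogenyTable.check_spec hI).2.2.2.2 r r.isLt
    have hx' : ((⟨x, Subgroup.subset_closure ⟨r, t, hx⟩⟩ : ↥(D.group F)) : GL D.Idx F).val
        = D.x F r.val t := by
      simp only [ChevalleyDatum.x, dif_pos r.isLt]
      exact hx
    have h2 := isogeny_x G h hI hinj (I.β r) hb (t ^ I.e r) _ (isogeny_x G h hI hinj r r.isLt t _ hx')
    rw [hbb, ← pow_mul, he] at h2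
    apply Subtype.ext
    apply Units.ext
    show _ = ((x : Matrix D.Idx D.Idx F)).map (frobenius F p)
    rw [h2, hx, xMat_map]
    simp only [ChevalleyDatum.x, dif_pos r.isLt, frobenius_def]
  | one =>
    have h1 : (⟨1, one_mem (D.group F)⟩ : ↥(D.group F)) = 1 := rfl
    apply Subtype.ext
    simp only [h1, map_one, OneMemClass.coe_one]
  | mul a b ha hb iha ihb =>
    have h1 : (⟨a * b, mul_mem ha hb⟩ : ↥(D.group F)) = ⟨a, ha⟩ * ⟨b, hb⟩ := rfl
    rw [h1, map_mul, map_mul, iha, ihb]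
    apply Subtype.ext
    simp only [Subgroup.coe_mul, map_mul]
  | inv a ha iha =>
    have h1 : (⟨a⁻¹, inv_mem ha⟩ : ↥(D.group F)) = (⟨a, ha⟩)⁻¹ := rfl
    rw [h1, map_inv, map_inv, iha]
    apply Subtype.ext
    simp only [InvMemClass.coe_inv, map_inv]

theorem isogeny_bijective [CharP F p] [Fact p.Prime] (hperf : ∀ x : F, ∃ y : F, y ^ p = x)
    (G : Good D) (h : blockCheck D p S = true) (hI : I.check D p S = true)
    (hinj : Function.Injective (idealRep (F := F) G h)) : Function.Bijective (isogeny G h hI hinj) := by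
  let f : F ≃+* F := RingEquiv.ofBijective (frobenius F p)
    ⟨frobenius_inj F p, fun x => by obtain ⟨y, hy⟩ := hperf x; exact ⟨y, by simpa [frobenius_def] using hy⟩⟩
  have key : ∀ g, isogeny G h hI hinj (isogeny G h hI hinj g) = fieldAut D f g := fun g => by
    rw [isogeny_sq]
    rfl
  refine ⟨fun a b e => (fieldAut D f).injective ?_, fun g => ?_⟩
  · rw [← key, ← key, e]
  · exact ⟨isogeny G h hI hinj ((fieldAut D f).symm g), by rw [key, MulEquiv.apply_symm_apply]⟩

end

section

variable {D : ChevalleyDatum} (G : Good D) {p : ℕ} {S : List ℕ} {F : Type*} [Field F] [CharP F p]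

/-- An invariant set of coordinates gives a faithful representation, as soon as it contains a fundamental coroot and its
root vector: a normal subgroup lies in `B` (so is trivial) or supplements `B`, and then the image would be triangular. -/
theorem idealRep_injective' (hconn : chkConn D = true) (h : blockCheck D p S = true) {i : ℕ} (hi : i < D.rank)
    (hiS : i ∈ S) (hsS : D.rank + D.simple i ∈ S)
    (hc : ((D.coroot.getD (D.neg (D.simple i)) #[]).getD i 0).natAbs = 1) :
    Function.Injective (idealRep (F := F) G h) := by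
  rw [← MonoidHom.ker_eq_bot_iff]
  rcases Cfsg.Agent.H8.BN.normal_dichotomy (G.irreducible_bnPair (F := F) hconn) (idealRep (F := F) G h).ker with hK | hK
  · rw [eq_bot_iff, ← G.normalCore_borel]
    exact (Subgroup.normal_le_normalCore (N := (idealRep (F := F) G h).ker)).2 hK
  exfalso
  obtain ⟨hnd, hS, -⟩ := blockCheck_spec h
  set r := D.neg (D.simple i) with hr
  have hsi := G.simple_lt hi
  have hrn : r < D.nroots := G.neg_lt hsi
  have hrr : D.negIdx.getD r 0 = D.simple i := G.neg_neg hsi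
  obtain ⟨k, hk, b, hb, e⟩ := Subgroup.mem_sup_of_normal_left.1
    (show G.xG r (1 : F) ∈ (idealRep (F := F) G h).ker ⊔ (G.bnPair (F := F)).B from hK ▸ Subgroup.mem_top _)
  have e1 : idealRep (F := F) G h (G.xG r 1) = idealRep G h b := by
    rw [← e, map_mul, MonoidHom.mem_ker.1 hk, one_mul]
  let A : D.Idx := Sum.inl ⟨i, hi⟩
  let B : D.Idx := Sum.inr ⟨D.simple i, hsi⟩
  have ea : SPoly.emb (adDim D) S hS ⟨S.idxOf i, List.idxOf_lt_length_iff.2 hiS⟩ = finSumFinEquiv A :=
    Fin.ext (by simp [SPoly.emb, A])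
  have eb : SPoly.emb (adDim D) S hS ⟨S.idxOf (D.rank + D.simple i), List.idxOf_lt_length_iff.2 hsS⟩ =
      finSumFinEquiv B := Fin.ext (by simp [SPoly.emb, B])
  have hent : ∀ g : ↥(D.group F),
      (idealRep (F := F) G h g : Matrix (Fin S.length) (Fin S.length) F) ⟨S.idxOf i, List.idxOf_lt_length_iff.2 hiS⟩
        ⟨S.idxOf (D.rank + D.simple i), List.idxOf_lt_length_iff.2 hsS⟩ =
      ((g : GL D.Idx F) : Matrix D.Idx D.Idx F) A B := by
    intro g
    show toFinMat D F ((g : GL D.Idx F) : Matrix D.Idx D.Idx F) _ _ = _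
    rw [ea, eb, toFinMat_apply]
  have h2 := congrArg (fun M : GL (Fin S.length) F => (M : Matrix (Fin S.length) (Fin S.length) F)
    ⟨S.idxOf i, List.idxOf_lt_length_iff.2 hiS⟩ ⟨S.idxOf (D.rank + D.simple i), List.idxOf_lt_length_iff.2 hsS⟩) e1
  simp only [hent] at h2
  have hx : (((G.xG r (1 : F) : ↥(D.group F)) : GL D.Idx F) : Matrix D.Idx D.Idx F) A B ≠ 0 := by
    show ((G.xg r (1 : F) : GL D.Idx F) : Matrix D.Idx D.Idx F) A B ≠ 0
    rw [G.coe_xg, ChevalleyDatum.x, dif_pos hrn]
    have hne : ¬ ((⟨D.simple i, hsi⟩ : Fin D.nroots) = ⟨r, hrn⟩) := fun e => G.neg_ne hsi (Fin.mk.inj e).symm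
    simp only [ChevalleyDatum.xMat, Matrix.of_apply, A, B, if_neg hne, hrr, if_pos, mul_one]
    rcases Int.natAbs_eq_iff.1 hc with h3 | h3 <;> rw [h3] <;> simp
  have hbB : Shift G.lvl 0 ((b : GL D.Idx F) : Matrix D.Idx D.Idx F) := by
    obtain ⟨u, hu, t, ht, e2⟩ := G.mem_borel.1 (hb : (b : GL D.Idx F) ∈ D.borelSubgroup F)
    obtain ⟨z, rfl⟩ := G.mem_diagonal.1 ht
    have e3 : (b : GL D.Idx F) = u * G.torus z := e2
    rw [e3, Units.val_mul]
    exact Shift.mul (i := 0) (j := 0) (Shift.of_sub_one (mem_triGroup.1 (G.posUnipotent_le_tri hu)).1)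
      (G.torus_shift z G.lvl)
  refine hx (h2.trans ?_)
  by_contra hne
  have h4 := hbB A B hne
  have := (G.isPosRoot_iff.1 (G.isPosRoot_simple hi)).1
  simp only [A, B, Good.lvl, Sum.elim_inl, Sum.elim_inr] at h4
  split at h4 <;> omega

end

end Cfsg.Agent.H64.Isogeny
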